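import Cfsg.Agent.H778.FR.Univ
import Cfsg.Agent.H834.SR.Psu
import Cfsg.Agent.H473.SR.Row
import Cfsg.Agent.H116.SR.E6
import Cfsg.Agent.H196.SRX.Final
import Cfsg.Agent.H686.SR.SzRee
import Cfsg.Agent.H315.SR.RowE7
import Cfsg.Agent.H368.SR.TwF

/-!
# S4970 (FR-FIN, helper778): families of Lie type with a non-real element
-/

set_option autoImplicit false

namespace Cfsg.Agent.H778.FRF

open Cfsg Cfsg.Lie Cfsg.Agent.H955.FS Cfsg.Agent.H721.FR Cfsg.Agent.H721.SR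

universe u

theorem fr_psu {S : Type u} [Group S] (h : IsPSU S) : FR S := by
  obtain ⟨F, _, _, n, q, hF, hn, h32, ⟨e⟩⟩ := h
  exact .of_nrel (NRel.congr e.symm (H834.SR.nrel_psu hF hn h32))

theorem fr_g2 {S : Type u} [Group S] (h : IsoChevG2 S) : FR S := by
  obtain ⟨F, _, _, -, ⟨e⟩⟩ := h
  exact .of_nrel (NRel.congr e.symm (H473.SR.nrel_g2 F))

theorem fr_f4 {S : Type u} [Group S] (h : IsoF4 S) : FR S := by
  obtain ⟨F, _, _, ⟨e⟩⟩ := h
  exact .of_nrel (NRel.congr e.symm H196.SRX.nrel_f4)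

theorem fr_e8 {S : Type u} [Group S] (h : IsoE8 S) : FR S := by
  obtain ⟨F, _, _, ⟨e⟩⟩ := h
  exact .of_nrel (NRel.congr e.symm H196.SRX.nrel_e8)

theorem fr_e7 {S : Type u} [Group S] (h : IsoE7 S) : FR S := .of_nrel (H315.SR.nrel_isoE7 h)

theorem fr_2f4 {S : Type u} [Group S] (h : Iso2F4 S) : FR S := .of_nrel (H368.SR.TwF.nrel_2F4 h)

theorem fr_tits {S : Type u} [Group S] (h : IsoTits S) : FR S := .of_nrel (H368.SR.TwF.nrel_tits h)

theorem fr_e6 {S : Type u} [Group S] (h : IsoChevE6 S) : FR S := .of_nrel (H116.SR.nrel_of_isoE6 h)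

theorem fr_2e6 {S : Type u} [Group S] (h : Iso2E6 S) : FR S := .of_nrel (H116.SR.nrel_of_iso2E6 h)

theorem fr_sz {S : Type u} [Group S] (h : IsoSuzuki S) : FR S := .of_nrel (H686.SR.SzRee.nrel_sz h)

theorem fr_ree {S : Type u} [Group S] (h : IsoRee S) : FR S := .of_nrel (H686.SR.SzRee.nrel_ree h)

end Cfsg.Agent.H778.FRF
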